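import Cfsg.Agent.H566.RC.Dia
import Cfsg.Agent.H160.QSpin

/-!
# S3510, triality: automorphisms of `dia τ` have determinant one; a commuting family is cyclic (helper675)

* `exists_gen` : commuting elements `M j` of pairwise different prime orders are powers of one element;
* `det_gamO` : `det x = kp x` for isometries;
* `mem_T1_of_aut`, `det_of_aut` : an automorphism of the product `dia τ` is in `T1 F`, so its determinant is one.
-/

set_option autoImplicit false

namespace Cfsg.Agent.H675.RC

open Module QuadraticMap Cfsg.Agent.LieClassical.OrthCore Cfsg.Agent.LieClassical.OrthTrans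
  Cfsg.Agent.LieClassical.OrthSimple Cfsg.Agent.ClassicalGeometry.OrthAut1
  Cfsg.Agent.ClassicalGeometry.OrthSemi Cfsg.Agent.H198.Classes
  Cfsg.Agent.LieClassical.QuadForms Cfsg.Agent.H198.ClassesPlus
  Cfsg.Agent.ClassicalGeometry.TrialityOct Cfsg.Agent.ClassicalGeometry.Triality
  Cfsg.Agent.ClassicalGeometry.TrialitySpaces Cfsg.Agent.H198.TriBase Cfsg.Agent.H198.TriAut
  Cfsg.Agent.H198.TriDia Cfsg.Agent.H198.TriTC

universe u

/-! ### families -/

/-- two commuting elements with coprime exponents are powers of their product -/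
theorem mem_zpowers_mul {G : Type*} [Group G] {a b : G} {m n : ℕ} (hab : a * b = b * a) (ha : a ^ m = 1)
    (hb : b ^ n = 1) (hmn : m.Coprime n) :
    a ∈ Subgroup.zpowers (a * b) ∧ b ∈ Subgroup.zpowers (a * b) := by
  have hc : Commute a b := hab
  have key : ∀ (a b : G) (m n : ℕ), Commute a b → a ^ m = 1 → b ^ n = 1 → m.Coprime n →
      a ∈ Subgroup.zpowers (a * b) := by
    intro a b m n hc ha hb hmn
    have h1 : (a * b) ^ n = a ^ n := by rw [hc.mul_pow, hb, mul_one]
    have h2 : a ∈ Subgroup.zpowers (a ^ n) := by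
      obtain ⟨k, hk⟩ := exists_pow_eq_self_of_coprime (x := a) (n := n)
        ((hmn.symm).coprime_dvd_right (orderOf_dvd_of_pow_eq_one ha))
      exact ⟨k, by simpa using hk⟩
    rw [← h1] at h2
    exact (Subgroup.zpowers_le.2 (Subgroup.npow_mem_zpowers _ _)) h2
  refine ⟨key a b m n hc ha hb hmn, ?_⟩
  rw [hab]
  exact key b a n m hc.symm hb ha hmn.symm

/-- **A commuting family of elements of pairwise different prime orders is cyclic.** -/
theorem exists_gen {G ι : Type*} [Group G] (M : ι → G) (r : ι → ℕ) (hr : ∀ j, (r j).Prime)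
    (hinj : Function.Injective r) (hM : ∀ j, M j ^ r j = 1) (hc : ∀ i j, M i * M j = M j * M i) (A : Finset ι) :
    ∃ s ∈ Subgroup.closure (M '' (A : Set ι)), (∀ j ∈ A, M j ∈ Subgroup.zpowers s) ∧ s ^ (∏ j ∈ A, r j) = 1 := by
  classical
  induction A using Finset.induction_on with
  | empty => exact ⟨1, one_mem _, by simp, one_pow _⟩
  | insert i A hi ih =>
    obtain ⟨s, hs, hsM, hs1⟩ := ih
    have hcs : M i * s = s * M i := by
      have h1 : s ∈ Subgroup.centralizer ({M i} : Set G) := by
        refine (Subgroup.closure_le _).2 ?_ hs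
        rintro _ ⟨j, -, rfl⟩
        exact Subgroup.mem_centralizer_singleton_iff.2 (hc j i)
      exact (Subgroup.mem_centralizer_singleton_iff.1 h1).symm
    have hcop : (r i).Coprime (∏ j ∈ A, r j) := by
      refine Nat.Coprime.prod_right fun j hj => ?_
      exact (Nat.coprime_primes (hr i) (hr j)).2 fun h => hi (by rw [hinj h]; exact hj)
    obtain ⟨h1, h2⟩ := mem_zpowers_mul hcs (hM i) hs1 hcop
    refine ⟨M i * s, ?_, ?_, ?_⟩
    · refine Subgroup.mul_mem _ (Subgroup.subset_closure ⟨i, by simp, rfl⟩) ?_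
      refine Subgroup.closure_mono ?_ hs
      exact Set.image_mono (by simp)
    · intro j hj
      rcases Finset.mem_insert.1 hj with rfl | hj
      · exact h1
      · exact (Subgroup.zpowers_le.2 h2) (hsM j hj)
    · rw [Finset.prod_insert hi, (show Commute (M i) s from hcs).mul_pow, pow_mul, hM, one_pow, one_mul, mul_comm,
        pow_mul, hs1, one_pow]

/-! ### the determinant -/

variable {F : Type u} [Field F]

/-- the sign in `F` -/
def sgn (F : Type*) [Field F] : ℤˣ →* Fˣ := Units.map (Int.castRingHom F).toMonoidHom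

theorem sgn_neg_one : sgn F (-1) = -1 := by
  ext
  simp [sgn]

/-- `det x = κ(x)` for an isometry -/
theorem det_gamO (hG : Good (plusForm 4 F)) (x : O (plusForm 4 F)) :
    LinearEquiv.det (x : V8 F ≃ₗ[F] V8 F) = sgn F (kp F (gamO _ x)) := by
  have key : ∀ x ∈ Subgroup.closure (reflSet (plusForm 4 F) ∪ siegelSet (plusForm 4 F)),
      ∀ hx : x ∈ O (plusForm 4 F), LinearEquiv.det x = sgn F (kp F (gamO _ ⟨x, hx⟩)) := by
    have hO : Subgroup.closure (reflSet (plusForm 4 F) ∪ siegelSet (plusForm 4 F)) =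
      O (plusForm 4 F) := (O_eq_closure hG.nondeg).symm
    intro x hx
    induction hx using Subgroup.closure_induction with
    | mem x hx =>
      intro hxO
      rcases hx with ⟨v, hv, rfl⟩ | hx
      · rw [H160.QSpin.det_refl, kp_refl, sgn_neg_one]
      · have h1 : x ∈ E (plusForm 4 F) := Subgroup.subset_closure hx
        have h2 : E (plusForm 4 F) ≤ (LinearEquiv.det (R := F) (M := V8 F)).ker :=
          E_le_of_refl_mul_refl hG fun a b ha hb _ => by
            rw [MonoidHom.mem_ker, map_mul, H160.QSpin.det_refl, H160.QSpin.det_refl]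
            simp
        rw [kappa_of_E hG _ h1, map_one]
        exact h2 h1
    | one =>
      intro hxO
      have : (⟨1, hxO⟩ : O (plusForm 4 F)) = 1 := rfl
      rw [this, map_one, map_one, map_one, map_one]
    | mul x y hx hy ihx ihy =>
      intro hxO
      have h1 : x ∈ O (plusForm 4 F) := by rw [← hO]; exact hx
      have h2 : y ∈ O (plusForm 4 F) := by rw [← hO]; exact hy
      have : (⟨x * y, hxO⟩ : O (plusForm 4 F)) = ⟨x, h1⟩ * ⟨y, h2⟩ := rfl
      rw [this, map_mul, map_mul, map_mul, map_mul, ihx h1, ihy h2]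
    | inv x hx ih =>
      intro hxO
      have h1 : x ∈ O (plusForm 4 F) := by rw [← hO]; exact hx
      have : (⟨x⁻¹, hxO⟩ : O (plusForm 4 F)) = (⟨x, h1⟩ : O (plusForm 4 F))⁻¹ := rfl
      rw [this, map_inv, map_inv, map_inv, map_inv, ih h1]
  exact key x.1 (by rw [← O_eq_closure hG.nondeg]; exact x.2) x.2

/-- an automorphism of the product `dia τ` is the first member of a triple -/
theorem tri_of_aut {τ s : G8 F} (hs : ∀ u w, s.1 (dia τ u w) = dia τ (s.1 u) (s.1 w)) :
    TriS s (τ⁻¹ * kapG F * s * kapG F * τ) (τ * kapG F * s * kapG F * τ⁻¹) := by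
  intro x y
  have h1 : omul x y = dia τ (oconj (τ.1 x)) (oconj (τ⁻¹.1 y)) := by
    unfold dia
    rw [oconj_oconj, oconj_oconj]
    congr 1
    · exact (τ.1.symm_apply_apply x).symm
    · exact (τ.1.apply_symm_apply y).symm
  rw [h1, hs]
  rfl

theorem mem_T1_of_aut {τ s : G8 F} (hs : ∀ u w, s.1 (dia τ u w) = dia τ (s.1 u) (s.1 w)) : s ∈ T1 F :=
  ⟨_, _, tri_of_aut hs⟩

/-- **an automorphism of `dia τ` which is an isometry has determinant one** -/
theorem det_of_aut (hG : Good (plusForm 4 F)) {τ : G8 F} {g : V8 F ≃ₗ[F] V8 F} (hg : g ∈ O (plusForm 4 F))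
    (hs : ∀ u w, g (dia τ u w) = dia τ (g u) (g w)) : LinearEquiv.det g = 1 := by
  rw [show LinearEquiv.det g = _ from det_gamO hG ⟨g, hg⟩,
    (mem_T1_iff hG).1 (mem_T1_of_aut (τ := τ) (s := gamO _ ⟨g, hg⟩) hs), map_one]

/-- the same for the determinant of the linear map -/
theorem det_of_aut' (hG : Good (plusForm 4 F)) {τ : G8 F} {g : V8 F ≃ₗ[F] V8 F} (hg : g ∈ O (plusForm 4 F))
    (hs : ∀ u w, g (dia τ u w) = dia τ (g u) (g w)) : LinearMap.det (g : V8 F →ₗ[F] V8 F) = 1 := by
  rw [← LinearEquiv.coe_det, det_of_aut hG hg hs]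
  rfl

end Cfsg.Agent.H675.RC
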