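import Cfsg.Agent.H566.RC.TriFrame
import Cfsg.Agent.H161.TriLin
import Cfsg.Agent.H752.SemiNormal
import Cfsg.Agent.H198.TriInn
import Cfsg.Agent.H675.RC.DetFam

/-!
# S3510, triality of `PΩ₈⁺(q)`: the frame (T0) (helper675)

* `NF τ` : normal forms; `classify_nf`;
* `Ex τ M` : `M` is an exact automorphism of `dia τ`; `exists_ex`, `Ex.eq_of_psi`, `Ex.mult`;
* `tricho` : commuting automorphisms of pairwise different prime orders are in a conjugate of the range of `Ψ`, or one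
  of order three is outside the range of `Ψ`;
* `frame` : **T0**.
-/

set_option autoImplicit false

namespace Cfsg.Agent.H675.RC

open Module QuadraticMap Cfsg.Agent.LieClassical.OrthCore Cfsg.Agent.LieClassical.OrthTrans
  Cfsg.Agent.LieClassical.OrthSimple Cfsg.Agent.ClassicalGeometry.OrthAut1
  Cfsg.Agent.ClassicalGeometry.OrthSemi Cfsg.Agent.H198.Classes
  Cfsg.Agent.LieClassical.QuadForms Cfsg.Agent.H198.ClassesPlus
  Cfsg.Agent.ClassicalGeometry.TrialityOct Cfsg.Agent.ClassicalGeometry.Triality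
  Cfsg.Agent.ClassicalGeometry.TrialitySpaces Cfsg.Agent.H198.TriBase Cfsg.Agent.H198.TriAut
  Cfsg.Agent.H198.TriDia Cfsg.Agent.H198.TriTC Cfsg.Agent.H566.RC Cfsg.Agent.H106.RC Cfsg.Agent.H93.RC

universe u

variable {F : Type u} [Field F]

/-! ### Normal forms -/

/-- the normal forms of `τ` -/
def NF (τ : G8 F) : Prop :=
  τ = 1 ∨ ((3 : F) ≠ 0 ∧ τ = tauB F) ∨
    (∃ ν : F ≃+* F, ν ≠ RingEquiv.refl F ∧ (∀ a, ν (ν (ν a)) = a) ∧ τ = fG ν) ∨
    ((3 : F) = 0 ∧ H198.TriDia.IsLin τ ∧ τ ≠ 1 ∧ ∃ v : V8 F, v ≠ 0 ∧ omul v v = 0 ∧ τ.1 v = v)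

theorem field_cube {τ : G8 F} (hτ : TriS τ τ τ) (ho : τ ^ 3 = 1) {σ : F ≃+* F} {c : F}
    (hs : IsSS (plusForm 4 F) σ c τ.1) (a : F) : σ (σ (σ a)) = a := by
  have h1 : (τ ^ 3).1 (a • one8 F) = a • one8 F := by rw [ho]; rfl
  rw [pow_three] at h1
  change τ.1 (τ.1 (τ.1 (a • one8 F))) = _ at h1
  rw [hs.smul, hs.smul, hs.smul, aut_one hτ, aut_one hτ, aut_one hτ] at h1
  have h2 : (σ (σ (σ a)) - a) • one8 F = 0 := by rw [sub_smul, h1, sub_self]
  rcases smul_eq_zero.1 h2 with h3 | h3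
  · exact sub_eq_zero.1 h3
  · exfalso
    have h5 := norm_one8 (F := F)
    rw [h3, QuadraticMap.map_zero] at h5
    exact zero_ne_one h5

/-- conjugation of `τ` to a normal form -/
theorem exists_nf [Finite F] {τ : G8 F} (hτ : TriS τ τ τ) (ho : τ ^ 3 = 1) {v : V8 F} (hv0 : v ≠ 0)
    (hvv : omul v v = 0) (hv : τ.1 v = v) :
    ∃ N : G8 F, TriS N N N ∧ NF (N * τ * N⁻¹) := by
  obtain ⟨σ, c, hs⟩ := τ.2
  obtain rfl := aut_mult hτ hs
  by_cases hσ1 : σ = RingEquiv.refl F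
  · subst hσ1
    by_cases h3 : (3 : F) = 0
    · refine ⟨1, TriS.one, ?_⟩
      rw [one_mul, inv_one, mul_one]
      by_cases h1 : τ = 1
      · exact Or.inl h1
      · exact Or.inr (Or.inr (Or.inr ⟨h3, ⟨1, hs⟩, h1, v, hv0, hvv, hv⟩))
    · rcases H161.TriLin.lin_normal h3 hτ ⟨1, hs⟩ ho hv0 hvv hv with h | ⟨N, hN, h⟩
      · refine ⟨1, TriS.one, ?_⟩
        rw [one_mul, inv_one, mul_one]
        exact Or.inl h
      · exact ⟨N, hN, Or.inr (Or.inl ⟨h3, h⟩)⟩
  · obtain ⟨N, hN, h⟩ := H752.SemiNormal.semi_normal hτ hs hσ1 ho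
    exact ⟨N, hN, Or.inr (Or.inr (Or.inl ⟨σ, hσ1, field_cube hτ ho hs, h⟩))⟩

theorem conj_three {G : Type*} [Group G] {a t : G} (h : t ^ 3 = 1) : (a * t * a⁻¹) ^ 3 = 1 := by
  rw [conj_pow, h, mul_one, mul_inv_cancel]

theorem conj_conj {G : Type*} [Group G] (a b x : G) : b * (a * x * a⁻¹) * b⁻¹ = b * a * x * (b * a)⁻¹ := by
  group

/-- **the classification with normal forms** -/
theorem classify_nf [Finite F] (hG : Good (plusForm 4 F)) {x : MulAut (P8 F)}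
    (hx : x ∉ (Psi (plusForm 4 F)).range) (ho : x ^ 3 = 1) :
    ∃ (α : MulAut (P8 F)) (τ : G8 F), TriS τ τ τ ∧ τ ^ 3 = 1 ∧ NF τ ∧
      (α * x * α⁻¹ = xt hG τ ∨ α * x⁻¹ * α⁻¹ = xt hG τ) := by
  obtain ⟨α, τ, hτ, hτ3, h, v, hv0, hvv, hv⟩ := H198.TriCls.classify hG hx ho
  obtain ⟨N, hN, h1⟩ := exists_nf hτ hτ3 hv0 hvv hv
  refine ⟨Psi _ N * α, N * τ * N⁻¹, (hN.mul hτ).mul hN.inv, conj_three hτ3, h1, ?_⟩
  rw [← xt_conj hG τ hN]
  rcases h with h | h
  · left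
    rw [← h, conj_conj]
  · right
    rw [← h, conj_conj]

/-! ### Exact automorphisms of `dia τ` -/

/-- `M` is an automorphism of the product `dia τ` -/
def Ex (τ M : G8 F) : Prop := ∀ u w, M.1 (dia τ u w) = dia τ (M.1 u) (M.1 w)

theorem Ex.one (τ : G8 F) : Ex τ 1 := fun _ _ => rfl

theorem Ex.mul {τ M N : G8 F} (hM : Ex τ M) (hN : Ex τ N) : Ex τ (M * N) := by
  intro u w
  change M.1 (N.1 _) = dia τ (M.1 (N.1 u)) (M.1 (N.1 w))
  rw [hN, hM]

theorem Ex.inv {τ M : G8 F} (hM : Ex τ M) : Ex τ M⁻¹ := by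
  intro u w
  apply M.1.injective
  rw [hM]
  change M.1 (M.1.symm _) = dia τ (M.1 (M.1.symm u)) (M.1 (M.1.symm w))
  rw [Equiv.apply_symm_apply, Equiv.apply_symm_apply, Equiv.apply_symm_apply]

theorem Ex.pow {τ M : G8 F} (hM : Ex τ M) (n : ℕ) : Ex τ (M ^ n) := by
  induction n with
  | zero => rw [pow_zero]; exact Ex.one τ
  | succ n ih => rw [pow_succ]; exact ih.mul hM

theorem mo_eq_dia {τ : G8 F} (hτ : TriS τ τ τ) (u w : V8 F) : mo τ τ u w = dia τ u w := by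
  rw [mo, dia, aut_oconj hτ.inv]

/-- the map `c ↦ ν⁻¹(c) ν(c) c⁻¹` -/
def phi (ν : F ≃+* F) : Fˣ →* Fˣ where
  toFun c := Units.map (ν.symm : F →* F) c * Units.map (ν : F →* F) c * c⁻¹
  map_one' := by simp
  map_mul' a b := by
    rw [map_mul, map_mul, mul_inv]
    ext
    push_cast
    ring

theorem phi_val (ν : F ≃+* F) (c : Fˣ) : ((phi ν c : Fˣ) : F) = ν.symm c * ν c * (c : F)⁻¹ := by
  rw [phi]
  simp

theorem phi_injective {ν : F ≃+* F} (hν : ∀ a, ν (ν (ν a)) = a) : Function.Injective (phi ν) := by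
  rw [injective_iff_map_eq_one]
  intro c hc
  have h0 : (c : F) ≠ 0 := c.ne_zero
  have h1 : ν.symm c * ν c = c := by
    have h := congrArg (Units.val) hc
    rw [phi_val, Units.val_one] at h
    field_simp at h
    exact h
  have hs : ν.symm (c : F) = ν (ν c) := by rw [RingEquiv.symm_apply_eq, hν]
  rw [hs] at h1
  have h2 := congrArg ν h1
  rw [map_mul, hν] at h2
  -- `ν ν c * ν c = c`, `c * ν ν c = ν c`
  have h3 : ν (ν (c : F)) * ν (ν c) = 1 := by
    have h4 : ν (ν (c : F)) * (c * ν (ν c)) = c := by rw [h2, h1]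
    have h5 : (c : F) * (ν (ν c) * ν (ν c)) = c * 1 := by rw [mul_one]; linear_combination h4
    exact mul_left_cancel₀ h0 h5
  have h6 : (c : F) * c = 1 := by
    have h := congrArg ν h3
    rw [map_mul, hν, map_one] at h
    exact h
  have h7 : ν (ν (c : F)) = c := by
    rcases mul_self_eq_one_iff.1 h6 with h | h <;> rw [h] <;> simp
  have h8 : ν (c : F) = c := by
    rcases mul_self_eq_one_iff.1 h6 with h | h <;> rw [h] <;> simp
  rw [h7, h8, h6] at h1
  exact Units.ext h1.symm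

theorem phi_surjective [Finite F] {ν : F ≃+* F} (hν : ∀ a, ν (ν (ν a)) = a) : Function.Surjective (phi ν) := by
  have : Finite Fˣ := inferInstance
  exact Finite.surjective_of_injective (phi_injective hν)

theorem dia_smul {τ : G8 F} {ν : F ≃+* F} {c : F} (hs : IsSS (plusForm 4 F) ν c τ.1) (a b : F) (u w : V8 F) :
    dia τ (a • u) (b • w) = (ν.symm a * ν b) • dia τ u w := by
  have hsi : IsSS (plusForm 4 F) ν.symm (ν.symm c⁻¹) τ⁻¹.1 := hs.inv
  rw [dia, dia, oconj_smul, oconj_smul, hs.smul, hsi.smul, smul_omul, omul_smul, smul_smul]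

/-- existence of an exact representative -/
theorem exists_ex [Finite F] (hG : Good (plusForm 4 F)) {τ : G8 F} (hτ : TriS τ τ τ) (ho : τ ^ 3 = 1)
    {N : G8 F} (hN : N ∈ T1 F) (hc : Psi _ N * xt hG τ = xt hG τ * Psi _ N) :
    ∃ M : G8 F, Psi (plusForm 4 F) M = Psi _ N ∧ Ex τ M := by
  obtain ⟨N₁, N₂, hN⟩ := hN
  obtain ⟨c, hc0, h⟩ := comm_mo hG hτ hN hc
  obtain ⟨ν, k, hs⟩ := τ.2
  obtain ⟨d, hd⟩ := phi_surjective (field_cube hτ ho hs) (Units.mk0 c hc0)
  have hd' : ν.symm (d : F) * ν d = c * d := by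
    have h1 := congrArg Units.val hd
    rw [phi_val, Units.val_mk0] at h1
    rw [← h1]
    field_simp
  refine ⟨scal _ d * N, ?_, fun u w => ?_⟩
  · have h1 : Psi (plusForm 4 F) (scal _ d) = 1 := by
      rw [← MonoidHom.mem_ker, ker_Psi hG]
      exact ⟨d, rfl⟩
    rw [map_mul (Psi (plusForm 4 F)) (scal _ d) N, h1, one_mul]
  · change (d : F) • N.1 (dia τ u w) = dia τ ((d : F) • N.1 u) ((d : F) • N.1 w)
    rw [dia_smul hs, hd', ← mo_eq_dia hτ, ← mo_eq_dia hτ, h, smul_smul, mul_comm]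

/-- the product is not identically zero on a semisimilitude -/
theorem smul_dia_cancel {τ M : G8 F} (hτ : TriS τ τ τ) {a b : F}
    (h : ∀ u w, a • dia τ (M.1 u) (M.1 w) = b • dia τ (M.1 u) (M.1 w)) : a = b := by
  have e : one8 F = M.1 (M⁻¹.1 (one8 F)) := (M.1.apply_symm_apply _).symm
  have h1 := h (M⁻¹.1 (one8 F)) (M⁻¹.1 (one8 F))
  rw [← e] at h1
  have h2 : dia τ (one8 F) (one8 F) = one8 F := by
    rw [dia, oconj_one8, aut_one hτ, aut_one hτ.inv, one_omul]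
  rw [h2] at h1
  have h3 : (a - b) • one8 F = 0 := by rw [sub_smul, h1, sub_self]
  rcases smul_eq_zero.1 h3 with h4 | h4
  · exact sub_eq_zero.1 h4
  · exfalso
    have h5 := norm_one8 (F := F)
    rw [h4, QuadraticMap.map_zero] at h5
    exact zero_ne_one h5

/-- uniqueness of the exact representative -/
theorem Ex.eq_of_psi (hG : Good (plusForm 4 F)) {τ : G8 F} (hτ : TriS τ τ τ) (ho : τ ^ 3 = 1)
    {M N : G8 F} (hM : Ex τ M) (hN : Ex τ N) (h : Psi (plusForm 4 F) M = Psi _ N) : M = N := by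
  obtain ⟨c, hc⟩ := smul_of_Psi_eq hG h
  obtain ⟨ν, k, hs⟩ := τ.2
  obtain ⟨θ, l, hN'⟩ := N.2
  set d : Fˣ := Units.map (θ : F →* F) c with hd
  have hdv : (d : F) = θ c := rfl
  have hc' : ∀ v, M.1 v = (d : F) • N.1 v := by
    intro v
    rw [hc, hN'.smul, hdv]
  have h1 : ν.symm (d : F) * ν d = d := by
    apply smul_dia_cancel hτ (M := N)
    intro u w
    rw [← dia_smul hs, ← hc', ← hc', ← hM, hc', hN]
  have h2 : phi ν d = 1 := by
    apply Units.ext
    rw [phi_val, h1, Units.val_one, mul_inv_cancel₀ d.ne_zero]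
  have h3 : d = 1 := phi_injective (field_cube hτ ho hs) (by rw [h2, map_one])
  apply Subtype.ext
  ext1 v
  rw [hc', h3, Units.val_one, one_smul]

/-! ### The classes -/

theorem KT_le : KT F ≤ (Psi (plusForm 4 F)).range := by
  rintro _ ⟨N, -, rfl⟩
  exact ⟨N, rfl⟩

theorem gen_conj {G : Type*} [Group G] {r k y : G} (h3 : r ^ 3 = 1) (hk : k * r * k = r⁻¹) (kk : k * k = 1) {i : ℕ}
    (hy : y = r ^ i * k) : r ^ i * y * (r ^ i)⁻¹ = k := by
  have hk1 : k * r * k⁻¹ = r⁻¹ := by rw [inv_eq_of_mul_eq_one_right kk, hk]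
  have hk2 : k * r ^ i * k⁻¹ = (r ^ i)⁻¹ := by
    rw [← conj_pow, hk1, inv_pow]
  have hk3 : k * r ^ i = (r ^ i)⁻¹ * k := by rw [← hk2]; group
  have hk4 : k * (r ^ i)⁻¹ = r ^ i * k := by
    have := congrArg (fun z => r ^ i * z * (r ^ i)⁻¹) hk3
    beta_reduce at this
    rw [← mul_assoc, mul_inv_cancel_right] at this
    rw [this]
    group
  rw [hy]
  calc r ^ i * (r ^ i * k) * (r ^ i)⁻¹ = r ^ i * r ^ i * (k * (r ^ i)⁻¹) := by group
    _ = r ^ i * r ^ i * (r ^ i * k) := by rw [hk4]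
    _ = (r ^ 3) ^ i * k := by rw [← pow_mul, mul_comm 3 i, pow_mul, pow_three]; group
    _ = k := by rw [h3, one_pow, one_mul]

/-- an element of prime order outside the kernel, in the class of a power of `r` -/
theorem gen_pw {G : Type*} [Group G] {r y : G} (h3 : r ^ 3 = 1) {i : ℕ} (hy : y = r ^ i) (h1 : y ≠ 1) {n : ℕ}
    (hn : n.Prime) (yn : y ^ n = 1) : n = 3 := by
  have h2 : y ^ 3 = 1 := by rw [hy, ← pow_mul, mul_comm, pow_mul, h3, one_pow]
  by_contra hne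
  have hcop : n.Coprime 3 := (Nat.coprime_primes hn Nat.prime_three).2 hne
  have h4 := pow_gcd_eq_one.2 ⟨yn, h2⟩
  rw [hcop.gcd_eq_one, pow_one] at h4
  exact h1 h4

theorem gen_two {G : Type*} [Group G] {r k y : G} (hk : k * r * k = r⁻¹) (kk : k * k = 1) {i : ℕ}
    (hy : y = r ^ i * k) : y ^ 2 = 1 := by
  have hk1 : k * r * k⁻¹ = r⁻¹ := by rw [inv_eq_of_mul_eq_one_right kk, hk]
  have hk2 : k * r ^ i * k⁻¹ = (r ^ i)⁻¹ := by
    rw [← conj_pow, hk1, inv_pow]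
  rw [inv_eq_of_mul_eq_one_right kk] at hk2
  rw [hy, pow_two]
  calc r ^ i * k * (r ^ i * k) = r ^ i * (k * r ^ i * k) := by group
    _ = 1 := by rw [hk2, mul_inv_cancel]

set_option maxHeartbeats 4000000 in
/-- **the trichotomy** -/
theorem tricho [Finite F] (hG : Good (plusForm 4 F)) {ι : Type*} {α : ι → MulAut (P8 F)} {r : ι → ℕ}
    (hr : ∀ i, (r i).Prime) (hinj : Function.Injective r) (hp : ∀ i, α i ^ r i = 1) :
    (∃ γ : MulAut (P8 F), ∀ i, γ * α i * γ⁻¹ ∈ (Psi (plusForm 4 F)).range) ∨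
      ∃ i₁, r i₁ = 3 ∧ α i₁ ∉ (Psi (plusForm 4 F)).range := by
  have hNor := KT_normal hG
  set π := QuotientGroup.mk' (KT F) with hπ
  have hker : ∀ y, π y = 1 ↔ y ∈ KT F := fun y => QuotientGroup.eq_one_iff y
  have hT : ∀ N ∈ T1 F, π (Psi (plusForm 4 F) N) = 1 := fun N hN => (hker _).2 ⟨N, hN, rfl⟩
  have h3 : π (rho hG) ^ 3 = 1 := by
    rw [← map_pow π (rho hG) 3, rho_pow_three, map_one π]
  have hk : π (Psi _ (kapG F)) * π (rho hG) * π (Psi _ (kapG F)) = (π (rho hG))⁻¹ := by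
    rw [← map_mul π (Psi _ (kapG F)) (rho hG), ← map_mul π (Psi _ (kapG F) * rho hG) (Psi _ (kapG F)),
      H198.TriInn.kap_rho_kap hG, map_inv π (rho hG)]
  have kk : π (Psi _ (kapG F)) * π (Psi _ (kapG F)) = 1 := by
    rw [← map_mul π (Psi _ (kapG F)) (Psi _ (kapG F)), ← map_mul (Psi (plusForm 4 F)) (kapG F) (kapG F),
      kapG_mul_kapG, map_one (Psi (plusForm 4 F)), map_one π]
  -- the classes
  have hcl : ∀ y : MulAut (P8 F), ∃ (i : ℕ) (M : G8 F), i < 3 ∧ y = rho hG ^ i * Psi _ M ∧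
      (π y = π (rho hG) ^ i ∨ π y = π (rho hG) ^ i * π (Psi _ (kapG F))) := by
    intro y
    obtain ⟨i, N, hi, h1⟩ := aut_cases hG y
    refine ⟨i, N, hi, h1, ?_⟩
    have h2 : π y = π (rho hG) ^ i * π (Psi _ N) := by
      rw [h1, map_mul π (rho hG ^ i) (Psi _ N), map_pow π (rho hG) i]
    by_cases hN : N ∈ T1 F
    · left
      rw [h2, hT N hN, mul_one]
    · right
      have h3 := hT _ (not_mem_T1 hG hN)
      rw [map_mul (Psi (plusForm 4 F)) N (kapG F), map_mul π (Psi _ N) (Psi _ (kapG F))] at h3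
      have h4 : π (Psi _ N) = π (Psi _ (kapG F)) := by
        rw [eq_inv_of_mul_eq_one_left h3]
        exact (eq_inv_of_mul_eq_one_left kk).symm
      rw [h2, h4]
  by_cases hall : ∀ i, π (α i) = 1
  · left
    refine ⟨1, fun i => ?_⟩
    rw [one_mul, inv_one, mul_one]
    exact KT_le ((hker _).1 (hall i))
  push Not at hall
  obtain ⟨i₀, hi₀⟩ := hall
  have hpow : ∀ i, π (α i) ^ r i = 1 := fun i => by rw [← map_pow π (α i) (r i), hp, map_one π]
  by_cases hex : ∃ i₁, r i₁ = 3 ∧ α i₁ ∉ (Psi (plusForm 4 F)).range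
  · exact Or.inr hex
  left
  -- the classes of the members are `1` or of the second type
  have h2nd : ∀ i, π (α i) ≠ 1 → r i = 2 ∧ ∃ j : ℕ, π (α i) = π (rho hG) ^ j * π (Psi _ (kapG F)) := by
    intro i hi
    obtain ⟨j, M, hj, h1, h2 | h2⟩ := hcl (α i)
    · exfalso
      apply hex
      refine ⟨i, gen_pw h3 h2 hi (hr i) (hpow i), ?_⟩
      rintro ⟨L, hL⟩
      have h4 : rho hG ^ j ∈ (Psi (plusForm 4 F)).range := by
        have h5 : rho hG ^ j = Psi _ L * (Psi _ M)⁻¹ := by rw [hL, h1, mul_inv_cancel_right]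
        rw [h5]
        exact mul_mem ⟨L, rfl⟩ (inv_mem ⟨M, rfl⟩)
      interval_cases j
      · rw [pow_zero] at h2
        exact hi h2
      · rw [pow_one] at h4
        exact rho_not_mem hG h4
      · rw [rho_sq] at h4
        exact rho_inv_not_mem hG h4
    · refine ⟨?_, j, h2⟩
      have h4 := gen_two hk kk h2
      by_contra hne
      have hcop : (r i).Coprime 2 := (Nat.coprime_primes (hr i) Nat.prime_two).2 hne
      have h5 := pow_gcd_eq_one.2 ⟨hpow i, h4⟩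
      rw [hcop.gcd_eq_one, pow_one] at h5
      exact hi h5
  obtain ⟨hr2, j, hj⟩ := h2nd i₀ hi₀
  refine ⟨rho hG ^ j, fun i => ?_⟩
  by_cases hii : i = i₀
  · subst hii
    have h5 : π (rho hG ^ j * α i * (rho hG ^ j)⁻¹) = π (Psi _ (kapG F)) := by
      rw [map_mul π (rho hG ^ j * α i) (rho hG ^ j)⁻¹, map_mul π (rho hG ^ j) (α i), map_inv π (rho hG ^ j),
        map_pow π (rho hG) j]
      exact gen_conj h3 hk kk hj
    have h6 : (Psi (plusForm 4 F) (kapG F))⁻¹ * (rho hG ^ j * α i * (rho hG ^ j)⁻¹) ∈ KT F :=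
      QuotientGroup.eq.1 h5.symm
    have h7 := mul_mem (MonoidHom.mem_range.2 ⟨kapG F, rfl⟩ : Psi (plusForm 4 F) (kapG F) ∈ _) (KT_le h6)
    rwa [mul_inv_cancel_left] at h7
  · have h8 : π (α i) = 1 := by
      by_contra hne
      exact hii (hinj ((h2nd i hne).1.trans hr2.symm))
    exact KT_le (hNor.conj_mem _ ((hker _).1 h8) _)

/-! ### Multipliers -/

/-- exact automorphisms have multiplier one -/
theorem Ex.mult {τ : G8 F} (hτ : TriS τ τ τ) (ho : τ ^ 3 = 1) {M : G8 F} (hM : Ex τ M) {θ : F ≃+* F} {c : F}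
    (hs : IsSS (plusForm 4 F) θ c M.1) : c = 1 := by
  obtain ⟨ν, k, ht⟩ := τ.2
  obtain rfl := aut_mult hτ ht
  have hti : IsSS (plusForm 4 F) ν.symm (ν.symm 1⁻¹) τ⁻¹.1 := ht.inv
  have h2 : dia τ (one8 F) (one8 F) = one8 F := by
    rw [dia, oconj_one8, aut_one hτ, aut_one hτ.inv, one_omul]
  have h3 := congrArg (plusForm 4 F) (hM (one8 F) (one8 F))
  rw [h2, dia, norm_omul, ht.form, hti.form, norm_oconj, hs.form, norm_one8, map_one, mul_one, inv_one, map_one,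
    one_mul, one_mul] at h3
  have h4 : phi ν (Units.mk0 c hs.ne) = 1 := by
    apply Units.ext
    rw [phi_val, Units.val_mk0, ← h3, Units.val_one, mul_inv_cancel₀ hs.ne]
  have h5 := phi_injective (field_cube hτ ho ht) (h4.trans (map_one (phi ν)).symm)
  exact congrArg Units.val h5

theorem Ex.mem_T1 {τ M : G8 F} (hM : Ex τ M) : M ∈ T1 F := mem_T1_of_aut hM

/-! ### The frame -/

/-- the data of the frame -/
structure Fr {G ι : Type*} [Group G] (hG : Good (plusForm 4 F)) (N : Subgroup G) (x : ι → G) (r : ι → ℕ)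
    (σ : P8 F →* G) (i₁ : ι) (τ : G8 F) (M : ι → G8 F) : Prop where
  rp : Rp (plusForm 4 F) N σ
  three : r i₁ = 3
  tri : TriS τ τ τ
  cube : τ ^ 3 = 1
  nf : NF τ
  la : La σ (x i₁) (xt hG τ)
  lf : ∀ j, j ≠ i₁ → Lf (up σ) (x j) (M j)
  ex : ∀ j, Ex τ (M j)
  pow : ∀ j, M j ^ r j = 1
  comm : ∀ j k, M j * M k = M k * M j
  ne : ∀ j, j ≠ i₁ → M j ≠ 1
  one : M i₁ = 1

theorem gen_cm {G : Type*} [Group G] {a b c : G} (h : a * b = b * a) :
    c * a * c⁻¹ * (c * b * c⁻¹) = c * b * c⁻¹ * (c * a * c⁻¹) := by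
  have e : ∀ a b : G, c * a * c⁻¹ * (c * b * c⁻¹) = c * (a * b) * c⁻¹ := fun a b => by group
  rw [e, e, h]

theorem gen_cm' {G : Type*} [Group G] {a b c : G} (h : a * b = b * a) :
    c * a * c⁻¹ * (c * b⁻¹ * c⁻¹) = c * b⁻¹ * c⁻¹ * (c * a * c⁻¹) :=
  gen_cm ((Commute.inv_right (h : Commute a b)).eq)

section frame

variable [Finite F] (hG : Good (plusForm 4 F)) {G Ω ι : Type*} [Group G] [MulAction G Ω] {N : Subgroup G}
  {σ : P8 F →* G} {x : ι → G} {r : ι → ℕ}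

/-- the frame, from the automorphisms -/
theorem frame_aux (hE : Env G Ω N) (hσ : Rp (plusForm 4 F) N σ) (hx : PF x r) {α : ι → MulAut (P8 F)} (hα : ∀ i, La σ (x i) (α i))
    {i₁ : ι} (h3 : r i₁ = 3) {γ : MulAut (P8 F)} {τ : G8 F} (hτ : TriS τ τ τ) (hτ3 : τ ^ 3 = 1) (hnf : NF τ)
    (hγ : γ * α i₁ * γ⁻¹ = xt hG τ) :
    ∃ (σ' : P8 F →* G) (M : ι → G8 F), Fr hG N x r σ' i₁ τ M := by
  classical
  have hcomm : ∀ i j, α i * α j = α j * α i := fun i j =>
    La.unique hσ ((hα i).mul (hα j)) (by rw [hx.comm]; exact (hα j).mul (hα i))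
  have hpow : ∀ i, α i ^ r i = 1 := fun i =>
    La.unique hσ ((hα i).pow (r i)) (by rw [hx.pow]; exact La.one)
  obtain ⟨σ', h1, h2⟩ := hσ.change γ
  have hβ : ∀ j, ∃ M : G8 F, Ex τ M ∧ (j ≠ i₁ → Psi (plusForm 4 F) M = γ * α j * γ⁻¹) ∧ (j = i₁ → M = 1) := by
    intro j
    by_cases hj : j = i₁
    · exact ⟨1, Ex.one τ, fun h => absurd hj h, fun _ => rfl⟩
    have hc : γ * α j * γ⁻¹ * (Psi _ τ * rho hG) = Psi _ τ * rho hG * (γ * α j * γ⁻¹) := by
      have h4 := gen_cm (c := γ) (hcomm j i₁)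
      rw [hγ] at h4
      exact h4
    have hn : (r j).Coprime 3 := by
      rw [← h3]
      exact (Nat.coprime_primes (hx.prime j) (hx.prime i₁)).2 fun h => hj (hx.inj h)
    have hyn : (γ * α j * γ⁻¹) ^ r j = 1 := by rw [conj_pow, hpow, mul_one, mul_inv_cancel]
    obtain ⟨L, L₁, L₂, hL, hL'⟩ := comm_range hG (M := τ) ⟨τ, τ, hτ⟩ hc hn hyn
    obtain ⟨M, hM, hM'⟩ := exists_ex hG hτ hτ3 (N := L) ⟨L₁, L₂, hL⟩ (by rw [hL']; exact hc)
    exact ⟨M, hM', fun _ => by rw [hM, hL'], fun h => absurd h hj⟩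
  choose M hM1 hM2 hM3 using hβ
  have hu : ∀ {A B : G8 F}, Ex τ A → Ex τ B → Psi (plusForm 4 F) A = Psi _ B → A = B := fun hA hB h =>
    Ex.eq_of_psi hG hτ hτ3 hA hB h
  refine ⟨σ', M, h1, h3, hτ, hτ3, hnf, by rw [← hγ]; exact h2 _ _ (hα i₁), fun j hj => ?_, hM1, fun j => ?_,
    fun j k => ?_, fun j hj h => ?_, hM3 i₁ rfl⟩
  · apply La.lf.1
    rw [hM2 j hj]
    exact h2 _ _ (hα j)
  · by_cases hj : j = i₁
    · rw [hM3 j hj, one_pow]
    · apply hu ((hM1 j).pow _) (Ex.one τ)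
      rw [map_pow (Psi (plusForm 4 F)) (M j) (r j), hM2 j hj, map_one (Psi (plusForm 4 F)), conj_pow, hpow, mul_one,
        mul_inv_cancel]
  · by_cases hj : j = i₁
    · rw [hM3 j hj, one_mul, mul_one]
    by_cases hk : k = i₁
    · rw [hM3 k hk, one_mul, mul_one]
    apply hu ((hM1 j).mul (hM1 k)) ((hM1 k).mul (hM1 j))
    rw [map_mul (Psi (plusForm 4 F)) (M j) (M k), map_mul (Psi (plusForm 4 F)) (M k) (M j), hM2 j hj, hM2 k hk]
    exact gen_cm (hcomm j k)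
  · have h4 := hM2 j hj
    rw [h, map_one (Psi (plusForm 4 F))] at h4
    have h5 : α j = 1 := by
      have h6 : γ * α j * γ⁻¹ = γ * 1 * γ⁻¹ := by rw [← h4, mul_one, mul_inv_cancel]
      exact mul_left_cancel (mul_right_cancel h6)
    exact hx.ne j (La.eq hE hσ (hα j) (by rw [h5]; exact La.one))

/-- inversion of a member of a family -/
theorem inv_family [DecidableEq ι] (hx : PF x r) (i₁ : ι) :
    PF (Function.update x i₁ (x i₁)⁻¹) r ∧
      ∀ i (ω : Ω), Function.update x i₁ (x i₁)⁻¹ i • ω = ω ↔ x i • ω = ω := by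
  refine ⟨⟨hx.prime, hx.inj, fun i => ?_, fun i => ?_, fun i j => ?_⟩, fun i ω => ?_⟩
  · by_cases hi : i = i₁
    · subst hi
      rw [Function.update_self, inv_pow, hx.pow, inv_one]
    · rw [Function.update_of_ne hi, hx.pow]
  · by_cases hi : i = i₁
    · subst hi
      rw [Function.update_self]
      exact inv_ne_one.2 (hx.ne i)
    · rw [Function.update_of_ne hi]
      exact hx.ne i
  · have h1 : ∀ i j, Commute (x i) (x j) := fun i j => hx.comm i j
    by_cases hi : i = i₁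
    · by_cases hj : j = i₁
      · rw [hi, hj]
      · rw [Function.update_of_ne hj, hi, Function.update_self]
        exact (h1 i₁ j).inv_left
    · by_cases hj : j = i₁
      · rw [Function.update_of_ne hi, hj, Function.update_self]
        exact (h1 i i₁).inv_right
      · rw [Function.update_of_ne hi, Function.update_of_ne hj]
        exact h1 i j
  · by_cases hi : i = i₁
    · subst hi
      rw [Function.update_self, inv_smul_eq_iff]
      exact eq_comm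
    · rw [Function.update_of_ne hi]

/-- **T0, the frame** -/
theorem frame (hE : Env G Ω N) (hσ : Rp (plusForm 4 F) N σ) (hx : PF x r)
    (hno : ¬ ∃ σ' : P8 F →* G, Rp (plusForm 4 F) N σ' ∧ ∀ i, ∃ M : G8 F, Lf (up σ') (x i) M) :
    ∃ (x' : ι → G) (σ' : P8 F →* G) (i₁ : ι) (τ : G8 F) (M : ι → G8 F), (∀ j, j ≠ i₁ → x' j = x j) ∧
      (x' i₁ = x i₁ ∨ x' i₁ = (x i₁)⁻¹) ∧ PF x' r ∧ (∀ i (ω : Ω), x' i • ω = ω ↔ x i • ω = ω) ∧
      Fr hG N x' r σ' i₁ τ M := by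
  classical
  choose α hα using fun i => exists_La hE.norm hσ (x i)
  have hpow : ∀ i, α i ^ r i = 1 := fun i =>
    La.unique hσ ((hα i).pow (r i)) (by rw [hx.pow]; exact La.one)
  rcases tricho hG hx.prime hx.inj hpow with ⟨γ, hγ⟩ | ⟨i₁, h3, hi₁⟩
  · exfalso
    obtain ⟨σ', h1, h2⟩ := hσ.change γ
    refine hno ⟨σ', h1, fun i => ?_⟩
    obtain ⟨M, hM⟩ := hγ i
    exact ⟨M, La.lf.1 (by rw [hM]; exact h2 _ _ (hα i))⟩
  · obtain ⟨γ, τ, hτ, hτ3, hnf, h | h⟩ := classify_nf hG hi₁ (by rw [← h3]; exact hpow i₁)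
    · obtain ⟨σ', M, hM⟩ := frame_aux hG hE hσ hx hα h3 hτ hτ3 hnf h
      exact ⟨x, σ', i₁, τ, M, fun _ _ => rfl, Or.inl rfl, hx, fun _ _ => Iff.rfl, hM⟩
    · obtain ⟨hx', hfix⟩ := inv_family (Ω := Ω) hx i₁
      have hα' : ∀ i, La σ (Function.update x i₁ (x i₁)⁻¹ i) (Function.update α i₁ (α i₁)⁻¹ i) := by
        intro i
        by_cases hi : i = i₁
        · subst hi
          rw [Function.update_self, Function.update_self]
          exact (hα i).inv
        · rw [Function.update_of_ne hi, Function.update_of_ne hi]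
          exact hα i
      obtain ⟨σ', M, hM⟩ := frame_aux hG hE hσ hx' hα' h3 hτ hτ3 hnf (by rw [Function.update_self]; exact h)
      refine ⟨_, σ', i₁, τ, M, fun j hj => Function.update_of_ne hj _ _, Or.inr (Function.update_self _ _ _), hx',
        hfix, hM⟩

end frame

end Cfsg.Agent.H675.RC
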