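import Cfsg.Agent.H675.RC.DetFam
import Cfsg.Agent.ClassicalGeometry.OrthDickson
import Cfsg.Agent.H198.TwComp

/-!
# S3510, triality, type (iv): single generator, parity of the fixed space, the twisted composition (helper675)

* `exists_single` : a commuting family of elements of pairwise different prime orders is cyclic;
* `dsign_eq` : the Dickson sign is `kp`; `even_fix` : an isometric automorphism of `dia τ` has a fixed space of even dimension;
* `tc_dia` : `dia τ` is a composition.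
-/

set_option autoImplicit false

namespace Cfsg.Agent.H675.RC

open Module QuadraticMap Cfsg.Agent.LieClassical.OrthCore Cfsg.Agent.LieClassical.OrthTrans
  Cfsg.Agent.LieClassical.OrthSimple Cfsg.Agent.ClassicalGeometry.OrthAut1
  Cfsg.Agent.ClassicalGeometry.OrthSemi Cfsg.Agent.H198.Classes
  Cfsg.Agent.LieClassical.QuadForms Cfsg.Agent.H198.ClassesPlus
  Cfsg.Agent.ClassicalGeometry.TrialityOct Cfsg.Agent.ClassicalGeometry.Triality
  Cfsg.Agent.ClassicalGeometry.TrialitySpaces Cfsg.Agent.H198.TriBase Cfsg.Agent.H198.TriAut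
  Cfsg.Agent.H198.TriDia Cfsg.Agent.H198.TriTC Cfsg.Agent.LieClassical.OrthFinite
  Cfsg.Agent.ClassicalGeometry.OrthDickson Cfsg.Agent.ClassicalGeometry.OrthCharTwo
  Cfsg.Agent.ClassicalGeometry.Reflection

universe u

/-- **(S)** -/
theorem exists_single {ι G : Type*} [Finite ι] [Group G] (M : ι → G) (hc : ∀ i j, Commute (M i) (M j)) {r : ι → ℕ}
    (hr : ∀ i, (r i).Prime) (hinj : Function.Injective r) (hM : ∀ i, M i ^ r i = 1) :
    ∃ s ∈ Subgroup.closure (Set.range M), (∃ n, s ^ n = 1 ∧ n ≠ 0 ∧ ∀ q : ℕ, q.Prime → q ∣ n → ∃ i, r i = q) ∧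
      ∀ i, M i ∈ Subgroup.zpowers s := by
  have := Fintype.ofFinite ι
  obtain ⟨s, hs, h1, h2⟩ := exists_gen M r hr hinj hM (fun i j => (hc i j).eq) Finset.univ
  refine ⟨s, Subgroup.closure_mono (Set.image_subset_range _ _) hs, ⟨∏ j ∈ Finset.univ, r j, h2, ?_, ?_⟩,
    fun i => h1 i (Finset.mem_univ _)⟩
  · exact Finset.prod_ne_zero_iff.2 fun j _ => (hr j).ne_zero
  · intro q hq hqn
    obtain ⟨i, -, hi⟩ := (Prime.dvd_finsetProd_iff hq.prime _).1 hqn
    exact ⟨i, ((Nat.prime_dvd_prime_iff_eq hq (hr i)).1 hi).symm⟩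

variable {F : Type u} [Field F]

theorem nondeg_pb (hG : Good (plusForm 4 F)) : (polarBilin (plusForm 4 F)).Nondegenerate :=
  ⟨fun v hv => hG.nondeg v hv, fun v hv => hG.nondeg v fun y => by rw [QuadraticMap.polar_comm]; exact hv y⟩

/-- the Dickson sign is `κ` -/
theorem dsign_eq (hG : Good (plusForm 4 F)) (g : Cfsg.isometryGroup F (⇑(plusForm 4 F))) :
    dsign (plusForm 4 F) g = kp F (gamO _ (isometryEquiv (plusForm 4 F) g)) := by
  refine isometry_induction (plusForm 4 F) (nondeg_pb hG) (Or.inr (by decide))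
    (fun g => dsign (plusForm 4 F) g = kp F (gamO _ (isometryEquiv (plusForm 4 F) g))) ?_ ?_ g
  · rw [dsign_one, map_one, map_one, map_one]
  · intro v hv g hg
    rw [dsign_refl_mul _ (nondeg_pb hG), hg, map_mul, map_mul, map_mul, FooteOrth.isometryEquiv_reflIso, kp_refl,
      neg_one_mul]

/-- **(D)** the fixed space of an automorphism of `dia τ` has even dimension -/
theorem even_fix (hG : Good (plusForm 4 F)) {τ : G8 F} {g : V8 F ≃ₗ[F] V8 F} (hg : g ∈ O (plusForm 4 F))
    (hs : ∀ u w, g (dia τ u w) = dia τ (g u) (g w)) :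
    Even (finrank F (LinearMap.ker ((g : V8 F →ₗ[F] V8 F) - 1))) := by
  set g' := (isometryEquiv (plusForm 4 F)).symm ⟨g, hg⟩ with hg'
  have h1 : isometryEquiv (plusForm 4 F) g' = ⟨g, hg⟩ := MulEquiv.apply_symm_apply _ _
  have h2 := dsign_eq hG g'
  rw [h1, (mem_T1_iff hG).1 (mem_T1_of_aut (τ := τ) (s := gamO _ ⟨g, hg⟩) hs), dsign_def] at h2
  have h3 : fixSp g' = LinearMap.ker ((g : V8 F →ₗ[F] V8 F) - 1) := by
    ext x
    have h4 : act g' x = g x := by
      rw [act_def, ← isometryEquiv_apply, h1]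
    rw [mem_fixSp, h4, LinearMap.mem_ker, LinearMap.sub_apply, sub_eq_zero]
    rfl
  rw [h3] at h2
  by_contra hne
  rw [Nat.not_even_iff_odd] at hne
  have h5 : Odd (finrank F (LinearMap.ker ((g : V8 F →ₗ[F] V8 F) - 1)) + Fintype.card (Fin 4 ⊕ Fin 4)) :=
    hne.add_even (by decide)
  rw [h5.neg_one_pow] at h2
  exact absurd h2 (by decide)

/-- **(T)** -/
theorem tc_dia {τ : G8 F} (h : H566.RC.Au τ) : H198.TwComp.TC (plusForm 4 F) (RingEquiv.refl F) (dia τ) where
  add_left := h.dia_add_left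
  add_right := h.dia_add_right
  smul_left := h.dia_smul_left
  smul_right := h.dia_smul_right
  left a b := h.dia_dia a b
  right a b := h.dia_dia' a b
  cube _ := rfl

end Cfsg.Agent.H675.RC
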